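import Cfsg.Agent.H665.RIM.Defs
import Cfsg.Agent.H990.TC.Univ
import Cfsg.Agent.H115.HC.CuspCentral
import Cfsg.Agent.Blocks.Deflate
import Cfsg.Agent.Blocks.Basic

/-!
# S4816: `NBall p K` from a universal cover of `K` (helper46)

* `exists_defl` : an irreducible character trivial on the kernel of `θ : Γ → E` comes from `E`;
* `Onto σ` : `σ : Γ → K` maps onto every perfect central extension of `K` (over `K`); `onto_of_trivial` (`Γ` has trivial
  multiplier), `onto_of_card` (`|ker σ| = |multiplier of K|`);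
* `nball_of_onto` : `NBall p K` from the characters of `Γ` over the nontrivial linear characters of `ker σ` of order prime
  to `p`.
-/

set_option autoImplicit false
set_option linter.unusedSectionVars false

namespace Cfsg.Agent.H46.RIM

open Cfsg Cfsg.Agent.Characters.Core Cfsg.Agent.H51.Mult Cfsg.Agent.H68.Bounds Cfsg.Agent.H665.RIM

universe u v w

/-- an irreducible character trivial on the kernel -/
theorem exists_defl {Γ : Type u} {E : Type v} [Group Γ] [Group E] [Finite Γ] (θ : Γ →* E)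
    (hθ : Function.Surjective θ) {χ : Γ → ℂ} (hχ : IsIrrCharacter Γ χ) (hk : ∀ z ∈ θ.ker, χ z = χ 1) :
    ∃ χ' : E → ℂ, IsIrrCharacter E χ' ∧ χ = χ' ∘ θ := by
  classical
  have := Fintype.ofFinite θ.ker
  have hsum : ∑ n : θ.ker, χ n ≠ 0 := by
    have h1 : ∑ n : θ.ker, χ n = ∑ _n : θ.ker, χ 1 := Finset.sum_congr rfl fun n _ => hk n n.2
    rw [h1, Finset.sum_const, Finset.card_univ, nsmul_eq_mul]
    exact mul_ne_zero (Nat.cast_ne_zero.2 Fintype.card_ne_zero) (isIrr_apply_one_ne_zero hχ)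
  obtain ⟨χ₀, h0⟩ := Blocks.Deflate.exists_deflation θ.ker χ hχ hsum
  let e := QuotientGroup.quotientKerEquivOfSurjective θ hθ
  refine ⟨(χ₀ : Γ ⧸ θ.ker → ℂ) ∘ e.symm, isIrr_comp e.symm.toMonoidHom e.symm.surjective χ₀.2, ?_⟩
  rw [h0]
  funext g
  change (χ₀ : Γ ⧸ θ.ker → ℂ) (QuotientGroup.mk g) = (χ₀ : Γ ⧸ θ.ker → ℂ) (e.symm (θ g))
  exact congrArg (χ₀ : Γ ⧸ θ.ker → ℂ) ((MulEquiv.eq_symm_apply e).2 rfl)

/-- `σ` maps onto every finite perfect central extension of `K` -/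
def Onto {Γ : Type u} {K : Type v} [Group Γ] [Group K] (σ : Γ →* K) : Prop :=
  ∀ (L : Type v) [Group L] [Finite L] (π : L →* K), PCE π → ∃ θ : Γ →* L, Function.Surjective θ ∧ ∀ x, π (θ x) = σ x

section onto

variable {Γ : Type u} {K : Type v} [Group Γ] [Group K]

theorem onto_of_trivial {σ : Γ →* K} (hσ : PCE σ) (h : Cfsg.HasCyclicSchurMultiplier Γ 1) : Onto σ := by
  intro L _ _ π hπ
  obtain ⟨D, _, f, g, hf, hg, hfg, -, -⟩ := exists_common hσ hπ
  have h1 := (ker_of_hasCyclic h hf).2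
  have h2 : Function.Injective f := by
    rw [← MonoidHom.ker_eq_bot_iff]
    exact Subgroup.eq_bot_of_card_eq _ (Nat.dvd_one.1 h1)
  let e : D ≃* Γ := MulEquiv.ofBijective f ⟨h2, hf.surj⟩
  refine ⟨g.comp e.symm.toMonoidHom, hg.surj.comp e.symm.surjective, fun x => ?_⟩
  have h3 : π (g (e.symm x)) = σ (f (e.symm x)) := (DFunLike.congr_fun hfg (e.symm x)).symm
  have h4 : f (e.symm x) = x := e.apply_symm_apply x
  rw [h4] at h3
  exact h3

theorem onto_of_card {A : Type w} [CommGroup A] (h : Cfsg.HasSchurMultiplier K A) {σ : Γ →* K} (hσ : PCE σ)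
    (hc : Nat.card σ.ker = Nat.card A) : Onto σ := by
  intro L _ _ π hπ
  obtain ⟨D, _, f, g, hf, hg, hfg, hD, -⟩ := exists_common hσ hπ
  have hA : Finite A := Cfsg.Agent.H487.finite_multiplier h
  have h1 := H990.TC.card_ker_dvd h hD
  rw [card_ker_comp hf.surj, hc] at h1
  have h3 : 0 < Nat.card A := Nat.card_pos
  have h4 : Nat.card f.ker ∣ 1 := by
    apply Nat.dvd_of_mul_dvd_mul_left h3
    rw [mul_one]; exact h1
  have h2 : Function.Injective f := by
    rw [← MonoidHom.ker_eq_bot_iff]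
    exact Subgroup.eq_bot_of_card_eq _ (Nat.dvd_one.1 h4)
  let e : D ≃* Γ := MulEquiv.ofBijective f ⟨h2, hf.surj⟩
  refine ⟨g.comp e.symm.toMonoidHom, hg.surj.comp e.symm.surjective, fun x => ?_⟩
  have h3 : π (g (e.symm x)) = σ (f (e.symm x)) := (DFunLike.congr_fun hfg (e.symm x)).symm
  have h4 : f (e.symm x) = x := e.apply_symm_apply x
  rw [h4] at h3
  exact h3

/-- **`NBall` from a universal cover** -/
theorem nball_of_onto {p : ℕ} [Finite Γ] {σ : Γ →* K} (hΓ : Onto σ)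
    (H : ∀ l : σ.ker →* ℂˣ, (∃ z, l z ≠ 1) → ¬ p ∣ Nat.card l.range →
      ∃ χ : Γ → ℂ, IsIrrCharacter Γ χ ∧ (∀ z : σ.ker, χ z = χ 1 * l z) ∧ p ∣ charDegree χ) : NBall p K := by
  intro m hm hpm E _ _ π hπs hπc hE hcard l hl
  obtain ⟨θ, hθ, hθσ⟩ := hΓ E π ⟨hπs, hπc, hE⟩
  have hθk : ∀ z ∈ σ.ker, θ z ∈ π.ker := fun z hz => by
    rw [MonoidHom.mem_ker, hθσ]
    exact hz
  let θ' : σ.ker →* π.ker := (θ.comp σ.ker.subtype).codRestrict π.ker fun z => hθk z z.2
  have hθ' : Function.Surjective θ' := by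
    rintro ⟨y, hy⟩
    obtain ⟨x, rfl⟩ := hθ y
    refine ⟨⟨x, ?_⟩, rfl⟩
    rw [MonoidHom.mem_ker, ← hθσ]
    exact hy
  have hr : Nat.card (l.comp θ').range = m := by
    have h1 : (l.comp θ').range = l.range := by
      rw [MonoidHom.range_comp, MonoidHom.range_eq_top.2 hθ', ← MonoidHom.range_eq_map]
    rw [h1, ← hcard]
    exact Nat.card_congr (MonoidHom.ofInjective hl).toEquiv.symm
  obtain ⟨χ, hχ, hχl, hpd⟩ := H (l.comp θ') (by
    by_contra hcon
    push Not at hcon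
    have h1 : (l.comp θ').range = ⊥ := by
      rw [eq_bot_iff]
      rintro _ ⟨z, rfl⟩
      exact hcon z
    rw [h1, Subgroup.card_bot] at hr
    omega) (by rw [hr]; exact hpm)
  have hker : ∀ z ∈ θ.ker, χ z = χ 1 := by
    intro z hz
    have h1 : z ∈ σ.ker := by
      rw [MonoidHom.mem_ker, ← hθσ, MonoidHom.mem_ker.1 hz, map_one]
    have h2 := hχl ⟨z, h1⟩
    have h3 : θ' ⟨z, h1⟩ = 1 := Subtype.ext hz
    rw [MonoidHom.comp_apply, h3, map_one, Units.val_one, mul_one] at h2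
    exact h2
  obtain ⟨χ', hχ', hcomp⟩ := exists_defl θ hθ hχ hker
  refine ⟨χ', hχ', fun z => ?_, ?_⟩
  · obtain ⟨y, rfl⟩ := hθ' z
    have h2 := hχl y
    rw [hcomp, Function.comp_apply, Function.comp_apply, map_one] at h2
    exact h2
  · have h1 : χ 1 = χ' 1 := by rw [hcomp, Function.comp_apply, map_one]
    obtain ⟨d, -, hd⟩ := isIrr_apply_one hχ
    rw [Blocks.Basic.charDegree_of_eq hd] at hpd
    rw [Blocks.Basic.charDegree_of_eq (h1.symm.trans hd)]
    exact hpd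

/-- trivial multiplier of the cover -/
theorem nball_of_trivial {p : ℕ} [Finite Γ] {σ : Γ →* K} (hσ : PCE σ) (h : Cfsg.HasCyclicSchurMultiplier Γ 1)
    (H : ∀ l : σ.ker →* ℂˣ, (∃ z, l z ≠ 1) → ¬ p ∣ Nat.card l.range →
      ∃ χ : Γ → ℂ, IsIrrCharacter Γ χ ∧ (∀ z : σ.ker, χ z = χ 1 * l z) ∧ p ∣ charDegree χ) : NBall p K :=
  nball_of_onto (onto_of_trivial hσ h) H

/-- the kernel has the order of the multiplier -/
theorem nball_of_card {p : ℕ} [Finite Γ] {A : Type w} [CommGroup A] (hA : Cfsg.HasSchurMultiplier K A) {σ : Γ →* K}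
    (hσ : PCE σ) (hc : Nat.card σ.ker = Nat.card A)
    (H : ∀ l : σ.ker →* ℂˣ, (∃ z, l z ≠ 1) → ¬ p ∣ Nat.card l.range →
      ∃ χ : Γ → ℂ, IsIrrCharacter Γ χ ∧ (∀ z : σ.ker, χ z = χ 1 * l z) ∧ p ∣ charDegree χ) : NBall p K :=
  nball_of_onto (onto_of_card hA hσ hc) H

end onto

end Cfsg.Agent.H46.RIM
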