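import Cfsg.Agent.H115.HC.CuspCentral

/-!
# Cuspidal characters of rank one groups over any central character (S4816, helper46)

`G` a finite group with a rank one Bruhat decomposition (`RankOneAbstract.Data H U w`), the torus `H / U` arbitrary of order
not divisible by `|U|`; `Z ≤ H` central in `G`, `f : Z → ℂˣ` arbitrary.

* `finrank_le_mul` : an irreducible representation has degree at most `|U| dim V^U`, if `V^U ≠ 0`;
* `exists_cuspidal` : there is an irreducible character over `f` without fixed vectors under `U`.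
-/

set_option autoImplicit false
set_option linter.dupNamespace false

namespace Cfsg.Agent.H46.RIM.CusOne

open Cfsg Cfsg.Agent.Characters.Core Cfsg.Agent.Characters.DegreeBounds Cfsg.Agent.H710.Cuspidal
open Cfsg.Agent.LieRecognition.RankOneAbstract Module Cfsg.Agent.H115.HC.CuspCentral
open scoped ComplexConjugate

variable {G : Type*} [Group G]

section rep

variable {V : Type*} [AddCommGroup V] [Module ℂ V] (ρ : Representation ℂ G V)

/-- the degree in terms of the fixed space -/
theorem finrank_le_mul [FiniteDimensional ℂ V] [Finite G] [ρ.IsIrreducible] {H U : Subgroup G} {w : G} (D : Data H U w)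
    [Fintype U] (hZ0 : Z ρ U ≠ 0) : finrank ℂ V ≤ Nat.card U * finrank ℂ (LinearMap.range (Z ρ U)) := by
  classical
  let W : Submodule ℂ V := LinearMap.range (Z ρ U)
  have hHW : ∀ h ∈ H, ∀ v ∈ W, ρ h v ∈ W := by
    rintro h hh _ ⟨v, rfl⟩
    refine ⟨ρ h v, ?_⟩
    rw [← Module.End.mul_apply, ← Module.End.mul_apply, ← rho_comm_Z ρ U (x := h)]
    intro u
    refine ⟨fun hu => D.norm h hh u hu, fun h1 => ?_⟩
    have := D.norm h⁻¹ (H.inv_mem hh) _ h1
    have h2 : h⁻¹ * (h * u * h⁻¹) * h⁻¹⁻¹ = u := by group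
    rwa [h2] at this
  -- the map onto `V`
  let L : (W × (U → W)) →ₗ[ℂ] V :=
    { toFun := fun x => (x.1 : V) + ∑ s : U, ρ ((s : G) * w) (x.2 s : V)
      map_add' := fun x y => by
        simp only [Prod.fst_add, Prod.snd_add, Pi.add_apply, Submodule.coe_add, map_add, Finset.sum_add_distrib]
        abel
      map_smul' := fun c x => by
        simp only [Prod.smul_fst, Prod.smul_snd, Pi.smul_apply, Submodule.coe_smul, map_smul, RingHom.id_apply,
          smul_add, Finset.smul_sum] }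
  have hL : ∀ x, L x = (x.1 : V) + ∑ s : U, ρ ((s : G) * w) (x.2 s : V) := fun _ => rfl
  have hW1 : ∀ v ∈ W, v ∈ LinearMap.range L := fun v hv => ⟨(⟨v, hv⟩, 0), by rw [hL]; simp⟩
  have hW2 : ∀ (s : U), ∀ v ∈ W, ρ ((s : G) * w) v ∈ LinearMap.range L := fun s v hv =>
    ⟨(0, Pi.single s ⟨v, hv⟩), by
      rw [hL, Finset.sum_eq_single s]
      · simp
      · intro t _ ht
        simp [Pi.single_eq_of_ne ht]
      · intro h
        exact absurd (Finset.mem_univ _) h⟩
  have key : ∀ g : G, ∀ v ∈ W, ρ g v ∈ LinearMap.range L := by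
    intro g v hv
    by_cases hg : g ∈ H
    · exact hW1 _ (hHW g hg v hv)
    · obtain ⟨s, hs, hsx⟩ := D.bruhat g hg
      have h1 : g = (s * w) * ((s * w)⁻¹ * g) := by group
      rw [h1, map_mul, Module.End.mul_apply]
      exact hW2 ⟨s, hs⟩ _ (hHW _ hsx v hv)
  have hspan : Submodule.span ℂ {x : V | ∃ g : G, ∃ v ∈ W, x = ρ g v} = ⊤ := by
    apply eq_top_of_stable ρ
    · intro g u hu
      induction hu using Submodule.span_induction with
      | mem x hx =>
        obtain ⟨q, v, hv, rfl⟩ := hx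
        refine Submodule.subset_span ⟨g * q, v, hv, ?_⟩
        rw [map_mul, Module.End.mul_apply]
      | zero => rw [map_zero]; exact Submodule.zero_mem _
      | add x y _ _ hx hy => rw [map_add]; exact Submodule.add_mem _ hx hy
      | smul a x _ hx => rw [map_smul]; exact Submodule.smul_mem _ _ hx
    · intro h
      apply hZ0
      ext v
      have h1 : Z ρ U v ∈ Submodule.span ℂ {x : V | ∃ g : G, ∃ v ∈ W, x = ρ g v} :=
        Submodule.subset_span ⟨1, Z ρ U v, ⟨v, rfl⟩, by simp⟩
      rw [h, Submodule.mem_bot] at h1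
      rw [h1, LinearMap.zero_apply]
  have hsurj : LinearMap.range L = ⊤ := by
    rw [eq_top_iff, ← hspan, Submodule.span_le]
    rintro _ ⟨g, v, hv, rfl⟩
    exact key g v hv
  -- the kernel
  have hA : ∀ v ∈ W, ∑ s : U, ρ ((s : G) * w) v ∈ W := by
    intro v _
    refine ⟨ρ w v, ?_⟩
    unfold Z
    rw [LinearMap.sum_apply]
    refine Finset.sum_congr rfl fun s _ => ?_
    rw [← Module.End.mul_apply, ← map_mul]
  let K : W →ₗ[ℂ] (W × (U → W)) :=
    { toFun := fun v => (⟨∑ s : U, ρ ((s : G) * w) (v : V), hA v v.2⟩, fun _ => -v)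
      map_add' := fun x y => Prod.ext (Subtype.ext (by
        change ∑ s : U, ρ ((s : G) * w) ((x : V) + y) = ∑ s : U, ρ ((s : G) * w) (x : V) + ∑ s : U, ρ ((s : G) * w) (y : V)
        rw [← Finset.sum_add_distrib]
        exact Finset.sum_congr rfl fun s _ => map_add _ _ _)) (funext fun _ => neg_add x y)
      map_smul' := fun c x => Prod.ext (Subtype.ext (by
        change ∑ s : U, ρ ((s : G) * w) (c • (x : V)) = c • ∑ s : U, ρ ((s : G) * w) (x : V)
        rw [Finset.smul_sum]
        exact Finset.sum_congr rfl fun s _ => map_smul _ _ _)) (funext fun _ => (smul_neg c x).symm) }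
  have hK : Function.Injective K := by
    intro x y hxy
    have h1 := congrFun (congrArg Prod.snd hxy) 1
    exact neg_injective h1
  have hKL : LinearMap.range K ≤ LinearMap.ker L := by
    rintro _ ⟨v, rfl⟩
    rw [LinearMap.mem_ker, hL]
    change ∑ s : U, ρ ((s : G) * w) (v : V) + ∑ s : U, ρ ((s : G) * w) ((-v : W) : V) = 0
    rw [← Finset.sum_add_distrib]
    refine Finset.sum_eq_zero fun s _ => ?_
    rw [Submodule.coe_neg, map_neg, add_neg_cancel]
  have h1 := LinearMap.finrank_range_add_finrank_ker L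
  have h2 := Submodule.finrank_mono hKL
  rw [LinearMap.finrank_range_of_inj hK] at h2
  rw [hsurj, finrank_top, Module.finrank_prod, Module.finrank_pi_fintype, Finset.sum_const, Finset.card_univ,
    smul_eq_mul, ← Nat.card_eq_fintype_card] at h1
  change finrank ℂ V ≤ Nat.card U * finrank ℂ W
  omega

/-- the dimension of the fixed space -/
theorem finrank_range [FiniteDimensional ℂ V] [Finite G] (U : Subgroup G) [Fintype U] {m : ℕ}
    (hm : ∑ u : U, ρ.character u = (Nat.card U : ℂ) * m) : finrank ℂ (LinearMap.range (Z ρ U)) = m := by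
  have hcU : (Nat.card U : ℂ) ≠ 0 := card_ne_zero_complex
  have htr : LinearMap.trace ℂ V (Z ρ U) = (Nat.card U : ℂ) * m := by
    rw [← hm, Z, map_sum]
    rfl
  set P : Module.End ℂ V := (Nat.card U : ℂ)⁻¹ • Z ρ U with hP
  have h1 : P * P = P := by
    rw [hP, smul_mul_smul_comm, Z_mul_Z, smul_smul]
    congr 1
    field_simp
  have h3 : IsIdempotentElem P := h1
  have h4 := LinearMap.IsProj.trace (LinearMap.IsIdempotentElem.isProj_range P h3)
  rw [hP, map_smul, htr, smul_eq_mul, inv_mul_cancel_left₀ hcU] at h4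
  have h5 : finrank ℂ (LinearMap.range P) = m := by exact_mod_cast h4.symm
  rwa [hP, LinearMap.range_smul _ _ (inv_ne_zero hcU)] at h5

end rep

/-- **Cuspidal characters over any central character.** -/
theorem exists_cuspidal [Finite G] {H U : Subgroup G} {w : G} (D : Data H U w) [Fintype U]
    (hH : ¬ Nat.card U ^ 2 ∣ Nat.card H) (Z : Subgroup G) (hZ : ∀ z ∈ Z, ∀ g, z * g = g * z) (f : Z →* ℂˣ) :
    ∃ χ : G → ℂ, IsIrrCharacter G χ ∧ ∑ u : U, χ u = 0 ∧ ∀ z : Z, χ z = χ 1 * f z := by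
  classical
  have := Fintype.ofFinite G
  have := Fintype.ofFinite Z
  have := finite_irr (G := G)
  have := Fintype.ofFinite (IrrCharacter G)
  by_contra hcon
  push Not at hcon
  have hcU : (Nat.card U : ℂ) ≠ 0 := card_ne_zero_complex
  -- the characters with central character `f`
  let S : Finset (IrrCharacter G) := Finset.univ.filter fun χ => ∀ z : Z, (χ : G → ℂ) z = f z * (χ : G → ℂ) 1
  have hS : ∀ χ, χ ∈ S ↔ ∀ z : Z, (χ : G → ℂ) z = f z * (χ : G → ℂ) 1 := fun χ => by
    simp [S]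
  choose m hm using fun χ : IrrCharacter G => exists_mult U χ.2
  have hm1 : ∀ χ ∈ S, m χ ≠ 0 := by
    intro χ hχ h0
    obtain ⟨z, hne⟩ := hcon χ χ.2 (by rw [hm χ, h0, Nat.cast_zero, mul_zero])
    exact hne ((hS χ).1 hχ z |>.trans (mul_comm _ _))
  set d : IrrCharacter G → ℕ := fun χ => charDegree (χ : G → ℂ) with hd
  have hd1 : ∀ χ : IrrCharacter G, (χ : G → ℂ) 1 = (d χ : ℂ) := fun χ =>
    Cfsg.Agent.Blocks.Basic.irr_one_eq_charDegree χ.2
  have hd0 : ∀ χ : IrrCharacter G, 0 < d χ := fun χ => Cfsg.Agent.Blocks.Basic.charDegree_pos χ.2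
  have hle : ∀ χ ∈ S, d χ ≤ Nat.card U * m χ := by
    intro χ hχ
    obtain ⟨n, ρ, hρ, h⟩ := χ.2
    have h2 : (d χ : ℂ) = (finrank ℂ (Fin n → ℂ) : ℂ) := by
      rw [← hd1 χ, ← h, Representation.char_one]
    have h3 : d χ = finrank ℂ (Fin n → ℂ) := by exact_mod_cast h2
    have h4 : finrank ℂ (LinearMap.range (H710.Cuspidal.Z ρ U)) = m χ := finrank_range ρ U (by rw [h]; exact hm χ)
    have h5 : H710.Cuspidal.Z ρ U ≠ 0 := by
      intro h0
      rw [h0, LinearMap.range_zero, finrank_bot] at h4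
      exact hm1 χ hχ h4.symm
    rw [h3, ← h4]
    exact finrank_le_mul ρ D h5
  -- the identities
  have hE : ∀ x ∈ U, ∑ χ ∈ S, (Nat.card Z : ℂ) * (d χ : ℂ) * (χ : G → ℂ) x =
      (Nat.card G : ℂ) * Cfsg.Agent.CharDeep.PowerDegrees.delta G x := by
    intro x hx
    rw [← sum_irr_central U Z hZ (fun u hu hu' => D.inter u hu (by
      rw [mul_assoc, hZ u hu' w, inv_mul_cancel_left]
      exact D.le hu)) f hx]
    rw [← Finset.sum_subset (Finset.subset_univ S)]
    · refine Finset.sum_congr rfl fun χ hχ => ?_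
      rcases sum_central χ.2 Z hZ f with ⟨h1, -⟩ | h1
      · rw [h1, hd1]
      · exfalso
        have h2 : ∑ z : Z, (((f z)⁻¹ : ℂˣ) : ℂ) * (χ : G → ℂ) z = (Nat.card Z : ℂ) * (χ : G → ℂ) 1 := by
          rw [Finset.sum_congr rfl (g := fun _ => (χ : G → ℂ) 1) fun z _ => by
            rw [(hS χ).1 hχ z, ← mul_assoc, Units.inv_mul, one_mul]]
          rw [Finset.sum_const, Finset.card_univ, nsmul_eq_mul, Nat.card_eq_fintype_card]
        rw [h1] at h2
        rcases mul_eq_zero.1 h2.symm with h3 | h3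
        · exact card_ne_zero_complex h3
        · exact isIrr_apply_one_ne_zero χ.2 h3
    · intro χ _ hχ
      rcases sum_central χ.2 Z hZ f with ⟨-, h1⟩ | h1
      · exact absurd ((hS χ).2 h1) hχ
      · rw [h1, zero_mul]
  have hcZ : (Nat.card Z : ℂ) ≠ 0 := card_ne_zero_complex
  have h1 := hE 1 U.one_mem
  have e1 : ∑ χ ∈ S, d χ * d χ = ∑ χ ∈ S, d χ * (Nat.card U * m χ) := by
    have h2 : ∑ x : U, ∑ χ ∈ S, (Nat.card Z : ℂ) * (d χ : ℂ) * (χ : G → ℂ) x = (Nat.card G : ℂ) := by
      rw [Finset.sum_congr rfl fun (x : U) _ => hE x x.2, Finset.sum_eq_single (1 : U)]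
      · rw [OneMemClass.coe_one, Cfsg.Agent.CharDeep.PowerDegrees.delta_one, mul_one]
      · intro u _ hu
        rw [Cfsg.Agent.CharDeep.PowerDegrees.delta_ne (fun h => hu (Subtype.ext h)), mul_zero]
      · intro h
        exact absurd (Finset.mem_univ _) h
    rw [Finset.sum_comm] at h2
    rw [Cfsg.Agent.CharDeep.PowerDegrees.delta_one, mul_one, ← h2] at h1
    have h3 : (Nat.card Z : ℂ) * ((∑ χ ∈ S, d χ * d χ : ℕ) : ℂ) =
        (Nat.card Z : ℂ) * ((∑ χ ∈ S, d χ * (Nat.card U * m χ) : ℕ) : ℂ) := by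
      push_cast
      rw [Finset.mul_sum, Finset.mul_sum]
      refine Eq.trans (Finset.sum_congr rfl fun χ _ => ?_) (h1.trans (Finset.sum_congr rfl fun χ _ => ?_))
      · rw [hd1]
        ring
      · rw [← Finset.mul_sum, hm]
        ring
    exact_mod_cast mul_left_cancel₀ hcZ h3
  -- all degrees are divisible by `|U|`
  have hdU : ∀ χ ∈ S, d χ = Nat.card U * m χ := by
    have h1 : ∀ χ ∈ S, d χ * d χ ≤ d χ * (Nat.card U * m χ) := fun χ hχ => Nat.mul_le_mul_left _ (hle χ hχ)
    have h2 := (Finset.sum_eq_sum_iff_of_le h1).1 e1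
    intro χ hχ
    exact Nat.eq_of_mul_eq_mul_left (hd0 χ) (h2 χ hχ)
  have h2 : Nat.card Z * ∑ χ ∈ S, d χ * d χ = Nat.card G := by
    have h3 : ((Nat.card Z * ∑ χ ∈ S, d χ * d χ : ℕ) : ℂ) = (Nat.card G : ℂ) := by
      have h4 := hE 1 U.one_mem
      rw [Cfsg.Agent.CharDeep.PowerDegrees.delta_one, mul_one] at h4
      rw [← h4]
      push_cast
      rw [Finset.mul_sum]
      refine Finset.sum_congr rfl fun χ _ => ?_
      rw [hd1]
      ring
    exact_mod_cast h3
  have h3 : Nat.card U ^ 2 ∣ Nat.card G := by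
    rw [← h2]
    refine Dvd.dvd.mul_left (Finset.dvd_sum fun χ hχ => ?_) _
    rw [hdU χ hχ, pow_two]
    exact mul_dvd_mul (Dvd.intro _ rfl) (Dvd.intro _ rfl)
  rw [← Subgroup.card_mul_index H, D.index] at h3
  refine hH (Nat.Coprime.dvd_of_dvd_mul_right ?_ h3)
  exact Nat.Coprime.pow_left _ (Nat.coprime_self_add_right.2 (Nat.coprime_one_right _))

end Cfsg.Agent.H46.RIM.CusOne
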