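import Cfsg.Agent.H46.RIM.CusOne
import Cfsg.Agent.H115.HC.RgdCusp

/-!
# Cuspidal characters of the rank one subgroups `M_i` over any linear character of the centre (S4816, helper46)

`R` any root group datum of a finite group (also the lifted datum of a cover), `i` any node: no coordinates, no condition on
the torus.

* `exists_cus_one` : a cuspidal irreducible character of `M_i` over a given linear character of a central subgroup.
-/

set_option autoImplicit false
set_option linter.unusedSectionVars false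

open scoped ComplexConjugate
open Cfsg

namespace Cfsg.Agent.H46.RIM

open Cfsg.Agent.Characters Cfsg.Agent.Characters.Core

universe u

section data

open Cfsg.Agent.LieRecognition.RankOneAbstract

variable {G : Type*} [Group G] {H U : Subgroup G} {w : G}

/-- another representative of the Weyl element -/
theorem data_mul (D : Data H U w) {t : G} (ht : t ∈ H) : Data H U (t * w) where
  w_not_mem h := D.w_not_mem (by
    have := mul_mem (inv_mem ht) h
    rwa [inv_mul_cancel_left] at this)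
  le := D.le
  norm := D.norm
  bruhat g hg := by
    obtain ⟨s, hs, h1⟩ := D.bruhat (t⁻¹ * g) (fun h2 => hg (by
      have := mul_mem ht h2
      rwa [mul_inv_cancel_left] at this))
    refine ⟨t * s * t⁻¹, D.norm t ht s hs, ?_⟩
    have e : (t * s * t⁻¹ * (t * w))⁻¹ * g = (s * w)⁻¹ * (t⁻¹ * g) := by group
    rwa [e]
  inter s hs h := by
    have h1 : t⁻¹ * s * t ∈ U := by
      have := D.norm t⁻¹ (inv_mem ht) s hs
      rwa [inv_inv] at this
    have h2 := D.inter _ h1 (by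
      have e : w⁻¹ * (t⁻¹ * s * t) * w = (t * w)⁻¹ * s * (t * w) := by group
      rwa [e])
    have h3 : s = t * (t⁻¹ * s * t) * t⁻¹ := by group
    rw [h3, h2]
    group

/-- restriction to a subgroup containing `U` and `w` -/
theorem data_sub (D : Data H U w) (M : Subgroup G) (hU : U ≤ M) (hw : w ∈ M) :
    Data (H.subgroupOf M) (U.subgroupOf M) ⟨w, hw⟩ where
  w_not_mem h := D.w_not_mem h
  le _ hx := D.le hx
  norm x hx s hs := D.norm x hx s hs
  bruhat g hg := by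
    obtain ⟨s, hs, h1⟩ := D.bruhat g hg
    exact ⟨⟨s, hU hs⟩, hs, h1⟩
  inter s hs h := Subtype.ext (D.inter s hs h)

end data

section rgd

open CoxeterSystem Cfsg.Agent.ChevalleyStructure.CoxeterGeom Cfsg.Agent.Tits.Roots Cfsg.Agent.Tits.Core
  Cfsg.Agent.Tits.Exchange Cfsg.Agent.Nodes.Reps Cfsg.Agent.Nodes.BNOf Cfsg.Agent.Nodes.StabComb
  Cfsg.Agent.Nodes.Bruhat Cfsg.Agent.Nodes.OppDec Cfsg.Agent.Nodes.LeviDec Cfsg.Agent.H53.HC
  Cfsg.Agent.LieRecognition.RankOneAbstract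

variable {I W Y : Type*} [Fintype I] [DecidableEq I] [Group W] [Group Y] {M : CoxeterMatrix I}
  {cs : CoxeterSystem M W} {A : I → I → ℤ} {h : IsCartan M A} {p : ℕ} {T : Subgroup Y} {n : I → Y}
  {X : (I → ℤ) → Subgroup Y}

theorem rad_single (i : I) : rad cs h X ({i} : Set I) i = X (sr i) := by
  unfold rad
  apply le_antisymm
  · refine RGD.Sup_le fun x hx => ?_
    have h1 : x ∈ PosJ cs h ({i} : Set I) := hx.1
    rw [H115.HC.PosJ_single] at h1
    rw [Set.mem_singleton_iff.1 h1]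
  · refine RGD.le_Sup ⟨sr_mem_PosJ (Set.mem_singleton i), ?_⟩
    rw [sr_self]
    exact zero_lt_one

theorem X_le_MJ_single (i : I) : X (sr i) ≤ MJ cs h X ({i} : Set I) :=
  RGD.le_Sup (PosJ_subset _ (sr_mem_PosJ (Set.mem_singleton i)))

theorem Xneg_le_MJ_single (i : I) : X (-sr i) ≤ MJ cs h X ({i} : Set I) :=
  RGD.le_Sup ⟨(isRoot_sr cs h i).neg, fun k hk => by
    rw [Pi.neg_apply, sr_ne (fun e => hk (by rw [e]; rfl)), neg_zero]⟩

variable (R : RGD cs h p T n X)

include R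

/-- a representative of the reflection inside `M_i` -/
theorem exists_n_mem (i : I) : ∃ t ∈ T, t * n i ∈ MJ cs h X ({i} : Set I) := by
  obtain ⟨u, hu, hu1⟩ : ∃ u ∈ X (-sr i), u ≠ 1 := by
    by_contra hcon
    push Not at hcon
    exact X_ne_bot R (isRoot_sr cs h i).neg ((Subgroup.eq_bot_iff_forall _).2 hcon)
  obtain ⟨a, ha, t, ht, b, hb, e⟩ := R.rk1 i u hu hu1
  refine ⟨t, ht, ?_⟩
  have h1 : t * n i = a⁻¹ * u * b⁻¹ := by rw [e]; group
  rw [h1]
  exact mul_mem (mul_mem (inv_mem (X_le_MJ_single i ha)) (Xneg_le_MJ_single i hu)) (inv_mem (X_le_MJ_single i hb))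

/-- the rank one datum of `M_i` -/
theorem data_MJ [Finite W] (i : I) {t : Y} (ht : t ∈ T) (hm : t * n i ∈ MJ cs h X ({i} : Set I)) :
    Data ((BJ cs h T X {i}).subgroupOf (MJ cs h X {i})) ((X (sr i)).subgroupOf (MJ cs h X {i})) ⟨t * n i, hm⟩ := by
  have D := data_mul (H115.HC.data R i) (t := ⟨t, T_le_LJ ht⟩) (show t ∈ BJ cs h T X {i} from T_le_BJ ht)
  have hle : MJ cs h X ({i} : Set I) ≤ LJ cs h T X {i} := MJ_le_LJ _
  refine ⟨fun hw => D.w_not_mem hw, fun x hx => ?_, fun x hx s hs => ?_, fun g hg => ?_, fun s hs hsw => ?_⟩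
  · exact X_le_BJ (sr_mem_PosJ (Set.mem_singleton i)) hx
  · exact H115.HC.conj_mem_X R hx hs
  · obtain ⟨s, hs, h1⟩ := D.bruhat ⟨g, hle g.2⟩ hg
    exact ⟨⟨s, X_le_MJ_single i hs⟩, hs, h1⟩
  · have h1 := D.inter ⟨s, hle s.2⟩ hs hsw
    exact Subtype.ext (congrArg (fun x : ↥(LJ cs h T X {i}) => (x : Y)) h1)

/-- the order of the Borel subgroup of `L_i` -/
theorem card_BJ_dvd [Finite Y] (i : I) : Nat.card (BJ cs h T X {i}) ∣ Nat.card (X (sr i)) * Nat.card T := by
  let N : Subgroup (BJ cs h T X {i}) := (X (sr i)).subgroupOf _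
  let T' : Subgroup (BJ cs h T X {i}) := T.subgroupOf _
  have hX : X (sr i) ≤ BJ cs h T X {i} := X_le_BJ (sr_mem_PosJ (Set.mem_singleton i))
  have hN : N.Normal := ⟨fun u hu b => H115.HC.conj_mem_X R b.2 hu⟩
  have hsup : T' ⊔ N = ⊤ := by
    rw [eq_top_iff]
    rintro ⟨x, hx⟩ -
    obtain ⟨u, hu, t, ht, rfl⟩ := H115.HC.mem_BJ_single R hx
    have h1 : (⟨u * t, hx⟩ : BJ cs h T X {i}) = ⟨u, hX hu⟩ * ⟨t, T_le_BJ ht⟩ := rfl
    rw [h1]
    exact mul_mem (le_sup_right (a := T') (show u ∈ X (sr i) from hu)) (le_sup_left (b := N) (show t ∈ T from ht))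
  have h1 : N.index ∣ Nat.card T' := by
    rw [← Subgroup.relIndex_top_right, ← hsup, Subgroup.relIndex_sup_right]
    exact Subgroup.relIndex_dvd_card _ _
  have h2 : Nat.card T' = Nat.card T := Nat.card_congr (Subgroup.subgroupOfEquivOfLe T_le_BJ).toEquiv
  have h3 : Nat.card N = Nat.card (X (sr i)) := Nat.card_congr (Subgroup.subgroupOfEquivOfLe hX).toEquiv
  rw [← Subgroup.card_mul_index N, h3]
  rw [h2] at h1
  exact mul_dvd_mul_left _ h1

/-- **Cuspidal characters of `M_i` over any linear character of a central subgroup.** -/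
theorem exists_cus_one [Finite W] [Finite Y] (i : I) (Z₁ : Subgroup Y) (hZM : Z₁ ≤ MJ cs h X {i})
    (hc : ∀ z ∈ Z₁, ∀ g ∈ MJ cs h X ({i} : Set I), z * g = g * z) (κ : Z₁ →* ℂˣ) :
    ∃ θ : ↥(MJ cs h X ({i} : Set I)) → ℂ, IsIrrCharacter _ θ ∧
      (∀ z (hz : z ∈ Z₁), θ ⟨z, hZM hz⟩ = θ 1 * (κ ⟨z, hz⟩ : ℂˣ)) ∧
      ∀ j ∈ ({i} : Set I), ∀ [Fintype (rad cs h X {i} j)], ∑ u : rad cs h X {i} j, θ ⟨u, rad_le_MJ _ j u.2⟩ = 0 := by
  classical
  obtain ⟨t, ht, hm⟩ := exists_n_mem R i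
  have D := data_MJ R i ht hm
  have : Fintype ((X (sr i)).subgroupOf (MJ cs h X ({i} : Set I))) := Fintype.ofFinite _
  have hcard : Nat.card ((X (sr i)).subgroupOf (MJ cs h X ({i} : Set I))) = Nat.card (X (sr i)) :=
    Nat.card_congr (Subgroup.subgroupOfEquivOfLe (X_le_MJ_single i)).toEquiv
  -- `|X_i|` is prime to `|T|`
  have hcop : (Nat.card T).Coprime (Nat.card (X (sr i))) := by
    refine Nat.Coprime.symm (Nat.coprime_of_dvd fun r hr h1 h2 => ?_)
    have : Fact r.Prime := ⟨hr⟩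
    obtain ⟨x, hx⟩ := exists_prime_orderOf_dvd_card' r h1
    obtain ⟨k, hk⟩ := R.pgrp i x
    have h3 : r ∣ p := hr.dvd_of_dvd_pow (hx ▸ orderOf_dvd_of_pow_eq_one hk)
    exact hr.one_lt.ne' (Nat.eq_one_of_dvd_coprimes R.tcop h2 h3)
  have hX1 : Nat.card (X (sr i)) ≠ 1 := by
    intro h1
    exact X_ne_bot R (isRoot_sr cs h i) (Subgroup.card_eq_one.1 h1)
  obtain ⟨θ, hθ, hsum, hz⟩ := CusOne.exists_cuspidal D (by
    rw [hcard]
    intro hd
    have h1 : Nat.card ((BJ cs h T X {i}).subgroupOf (MJ cs h X ({i} : Set I))) ∣ Nat.card (BJ cs h T X {i}) := by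
      have h2 := Subgroup.card_dvd_of_injective
        (((MJ cs h X ({i} : Set I)).subtype.comp ((BJ cs h T X {i}).subgroupOf (MJ cs h X ({i} : Set I))).subtype).codRestrict
          (BJ cs h T X {i}) fun x => x.2) (fun x y hxy => by
            apply Subtype.ext
            apply Subtype.ext
            exact congrArg (fun x : ↥(BJ cs h T X {i}) => (x : Y)) hxy)
      exact h2
    have h3 := hd.trans (h1.trans (card_BJ_dvd R i))
    rw [pow_two] at h3
    have h4 := Nat.dvd_of_mul_dvd_mul_left Nat.card_pos h3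
    exact hX1 (Nat.eq_one_of_dvd_coprimes hcop h4 dvd_rfl)) (Z₁.subgroupOf (MJ cs h X ({i} : Set I)))
    (fun z hz g => Subtype.ext (hc z hz g g.2))
    (κ.comp (M := ↥(Z₁.subgroupOf (MJ cs h X ({i} : Set I)))) (N := Z₁)
      { toFun := fun z => ⟨(z : ↥(MJ cs h X ({i} : Set I))), z.2⟩
        map_one' := rfl
        map_mul' := fun _ _ => rfl })
  refine ⟨θ, hθ, fun z hz' => hz ⟨⟨z, hZM hz'⟩, hz'⟩, ?_⟩
  rintro j rfl hf
  rw [← hsum]
  have hr := rad_single (cs := cs) (h := h) (X := X) j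
  refine Fintype.sum_bijective (fun u : rad cs h X {j} j =>
    (⟨⟨u, rad_le_MJ _ j u.2⟩, (by rw [← hr]; exact u.2 : (u : Y) ∈ X (sr j))⟩ :
      (X (sr j)).subgroupOf (MJ cs h X ({j} : Set I)))) ?_ _ _ (fun u => rfl)
  constructor
  · intro a b hab
    exact Subtype.ext (congrArg (fun x : ↥((X (sr j)).subgroupOf (MJ cs h X ({j} : Set I))) =>
      ((x : ↥(MJ cs h X ({j} : Set I))) : Y)) hab)
  · rintro ⟨⟨x, hx⟩, hx'⟩
    exact ⟨⟨x, by rw [hr]; exact hx'⟩, rfl⟩

end rgd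

end Cfsg.Agent.H46.RIM
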