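import Cfsg.Agent.H46.RIM.PslOf
import Cfsg.Agent.H886.RIM.GLn
import Cfsg.Agent.H325.RIM.Surv

/-!
# S4816: `NBall p (PSL_n(q))`, `p` odd, not the characteristic (helper46, from helper886's characters of `GL_n(q)`)
-/

set_option autoImplicit false
set_option linter.unusedSectionVars false

namespace Cfsg.Agent.H46.RIM

open Cfsg Cfsg.Agent.H665.RIM Cfsg.Agent.H886.RIM Matrix

universe u

variable {F : Type u} [Field F] [Fintype F]

/-- two characters of `Fˣ` with product `μ` -/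
theorem exists_split (hq : 4 ≤ Fintype.card F) (μ : Fˣ →* ℂˣ) : ∃ α β : Fˣ →* ℂˣ, α ≠ β ∧ α * β = μ := by
  classical
  by_cases hμ : μ = 1
  · obtain ⟨θ, hθ⟩ := Cfsg.Agent.H139.Cusp.exists_theta F
    obtain ⟨c, hc⟩ := IsCyclic.exists_generator (α := Fˣ)
    have hc' : orderOf c = Nat.card Fˣ := orderOf_eq_card_of_forall_mem_zpowers hc
    rw [Nat.card_units, Nat.card_eq_fintype_card] at hc'
    let β : Fˣ →* ℂˣ := Units.map (θ : F →* ℂ)
    refine ⟨β⁻¹, β, fun h => ?_, by rw [hμ]; exact inv_mul_cancel β⟩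
    have h1 : β c * β c = 1 := by
      have h0 : (β c)⁻¹ = β c := DFunLike.congr_fun h c
      exact (congrArg (fun x => x * β c) h0.symm).trans (inv_mul_cancel (β c))
    have h2 : β (c ^ 2) = β 1 := by rw [pow_two, map_mul, h1, map_one]
    have h3 : θ (c ^ 2 : Fˣ) = θ (1 : Fˣ) := congrArg Units.val h2
    have h4 : c ^ 2 = 1 := Units.ext (hθ h3)
    have h5 := Nat.le_of_dvd (by norm_num) (orderOf_dvd_of_pow_eq_one h4)
    omega
  · exact ⟨μ, 1, hμ, mul_one μ⟩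

/-- the characters of `GL_2(q)` -/
theorem exists_gl_two (hq : 4 ≤ Fintype.card F) {p : ℕ} (hp : p.Prime) (hp2 : p ≠ 2)
    (hpi : p ∣ Fintype.card F ^ 2 - 1) (μ : Fˣ →* ℂˣ) :
    ∃ (χ : GL (Fin 2) F → ℂ) (d : ℕ), IsIrrCharacter _ χ ∧ χ 1 = d ∧
      p * Nat.gcd 2 (Fintype.card F - 1) ∣ d ∧
      ∀ (c : Fˣ) (g : GL (Fin 2) F), χ (GeneralLinearGroup.scalar (Fin 2) c * g) = μ c * χ g := by
  have hcop : Nat.Coprime p (Nat.gcd 2 (Fintype.card F - 1)) := by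
    have h1 : Nat.Coprime p 2 := (Nat.coprime_primes hp Nat.prime_two).2 hp2
    exact h1.coprime_dvd_right (Nat.gcd_dvd_left _ _)
  have hfac : Fintype.card F ^ 2 - 1 = (Fintype.card F - 1) * (Fintype.card F + 1) := by
    obtain ⟨m, hm⟩ : ∃ m, Fintype.card F = m + 1 := ⟨Fintype.card F - 1, by omega⟩
    rw [hm, Nat.add_sub_cancel]
    have : (m + 1) ^ 2 = m * (m + 1 + 1) + 1 := by ring
    omega
  rw [hfac] at hpi
  rcases (hp.dvd_mul).1 hpi with h | h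
  · obtain ⟨χ, h1, -, h3, h4⟩ := exists_cus (F := F) (n := 2) (by norm_num) μ
    refine ⟨χ, Fintype.card F - 1, h1, ?_, hcop.mul_dvd_of_dvd_of_dvd h (Nat.gcd_dvd_right _ _), h4⟩
    rw [h3]
    simp
  · obtain ⟨α, β, hne, hαβ⟩ := exists_split hq μ
    obtain ⟨χ, h1, h3, h4⟩ := exists_two hne
    rw [hαβ] at h4
    refine ⟨χ, Fintype.card F + 1, h1, h3, hcop.mul_dvd_of_dvd_of_dvd h ?_, h4⟩
    have h5 : Fintype.card F + 1 = (Fintype.card F - 1) + 2 := by omega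
    rw [h5]
    exact dvd_add (Nat.gcd_dvd_right _ _) (Nat.gcd_dvd_left _ _)

/-- **L-PSL** : `PSL_n(q)` at an odd prime `p ∤ q`. -/
theorem nb_psl {n : ℕ} {p : ℕ} (hp : p.Prime) (hp2 : p ≠ 2) (hpF : ¬ p ∣ Fintype.card F)
    (hd : p ∣ Nat.card (ProjectiveSpecialLinearGroup (Fin n) F)) (h : H60.MultA.Ok n (Nat.card F)) :
    NBall p (ProjectiveSpecialLinearGroup (Fin n) F) := by
  obtain ⟨i, hi, hin, hpi⟩ := exists_exp h.two hp hpF hd
  refine nball_psl_of_gl h fun μ => ?_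
  rcases Nat.lt_or_ge n 3 with hn | hn
  · have hn2 : n = 2 := by have := h.two; omega
    subst hn2
    refine exists_gl_two ?_ hp hp2 ?_ μ
    · rw [← Nat.card_eq_fintype_card]
      exact h.four rfl
    · interval_cases i
      · rw [pow_one] at hpi
        exact hpi.trans (by simpa using Nat.sub_dvd_pow_sub_pow (Fintype.card F) 1 2)
      · exact hpi
  · exact exists_gl hn hp hi hin hpi μ

open Cfsg.Agent.H325.RIM Cfsg.Agent.OrdDiv in
/-- the field `psl` of `H325.RIM.RowsNB` -/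
theorem row_psl (p n q : ℕ) (hp : p.Prime) (hp2 : p ≠ 2) (hpq : ¬ p ∣ q)
    (hex : (n, q) ∉ ({(2, 4), (2, 9), (3, 2), (3, 4), (4, 2)} : Set (ℕ × ℕ))) : NBRow p (.psl n q) := by
  intro S _ _ hS hd
  obtain ⟨⟨F, _, _, hF, ⟨e⟩⟩, ⟨h2, h4, -⟩, -, -⟩ := hS
  subst hF
  rw [Nat.card_congr e.toEquiv] at hd
  refine NBall.congr e (nb_psl hp hp2 hpq hd ⟨h2, ?_, ?_⟩)
  · rwa [Nat.card_eq_fintype_card]
  · rwa [Nat.card_eq_fintype_card]

end Cfsg.Agent.H46.RIM
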