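import Cfsg.Agent.H46.RIM.Restr
import Cfsg.Agent.H60.MultA

/-!
# S4816: `NBall p (PSL_n(q))` from characters of `SL_n(q)` or `GL_n(q)` (helper46)
-/

set_option autoImplicit false
set_option linter.unusedSectionVars false

namespace Cfsg.Agent.H46.RIM

open Cfsg Cfsg.Agent.Characters.Core Cfsg.Agent.H51.Mult Cfsg.Agent.H665.RIM Matrix

universe u v w

variable {F : Type u} [Field F] [Fintype F] {n : ℕ}

/-- the scalar matrices of `SL_n` -/
def scl (n : ℕ) (F : Type u) [Field F] : (powMonoidHom n : Fˣ →* Fˣ).ker →* SpecialLinearGroup (Fin n) F where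
  toFun c := ⟨scalar (Fin n) ((c : Fˣ) : F), by
    have h1 : (c : Fˣ) ^ n = 1 := c.2
    have h2 := congrArg Units.val h1
    rw [Units.val_pow_eq_pow_val, Units.val_one] at h2
    rw [Matrix.scalar_apply, det_diagonal, Finset.prod_const, Finset.card_univ, Fintype.card_fin, h2]⟩
  map_one' := Subtype.ext (by simp)
  map_mul' x y := Subtype.ext (by
    change scalar (Fin n) ((x : Fˣ) * (y : Fˣ) : F) = scalar (Fin n) ((x : Fˣ) : F) * scalar (Fin n) ((y : Fˣ) : F)
    rw [map_mul])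

theorem coe_scl (c : (powMonoidHom n : Fˣ →* Fˣ).ker) :
    ((scl n F c : SpecialLinearGroup (Fin n) F) : Matrix (Fin n) (Fin n) F) = scalar (Fin n) ((c : Fˣ) : F) := rfl

theorem scl_mem (c : (powMonoidHom n : Fˣ →* Fˣ).ker) :
    scl n F c ∈ Subgroup.center (SpecialLinearGroup (Fin n) F) := by
  rw [Matrix.SpecialLinearGroup.mem_center_iff]
  refine ⟨(c : Fˣ), ?_, rfl⟩
  have h1 : (c : Fˣ) ^ n = 1 := c.2
  have h2 := congrArg Units.val h1
  rw [Units.val_pow_eq_pow_val, Units.val_one] at h2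
  rwa [Fintype.card_fin]

theorem exists_scl (hn : n ≠ 0) {z : SpecialLinearGroup (Fin n) F}
    (hz : z ∈ Subgroup.center (SpecialLinearGroup (Fin n) F)) : ∃ c, scl n F c = z := by
  rw [Matrix.SpecialLinearGroup.mem_center_iff, Fintype.card_fin] at hz
  obtain ⟨r, hr, hz⟩ := hz
  refine ⟨⟨(IsUnit.of_pow_eq_one hr hn).unit, ?_⟩, ?_⟩
  · rw [MonoidHom.mem_ker]
    apply Units.ext
    rw [powMonoidHom_apply, Units.val_pow_eq_pow_val, IsUnit.unit_spec, hr, Units.val_one]
  · apply Subtype.ext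
    rw [← hz]
    rfl

/-- **from `SL_n`** -/
theorem nball_psl_of_sl {p : ℕ} (h : H60.MultA.Ok n (Nat.card F))
    (H : ∀ μ : Fˣ →* ℂˣ, (∃ c : Fˣ, c ^ n = 1 ∧ μ c ≠ 1) → ∃ χ : SpecialLinearGroup (Fin n) F → ℂ,
      IsIrrCharacter _ χ ∧ p ∣ charDegree χ ∧ ∀ c, χ (scl n F c) = χ 1 * μ c) :
    NBall p (ProjectiveSpecialLinearGroup (Fin n) F) := by
  classical
  have hn := h.two
  have hσ : PCE (QuotientGroup.mk' (Subgroup.center (SpecialLinearGroup (Fin n) F))) :=
    ⟨QuotientGroup.mk'_surjective _, by rw [QuotientGroup.ker_mk'], H60.MultA.perfect_SL h⟩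
  refine nball_of_trivial hσ (H60.MultA.hasTrivial_SL h) fun l hl _ => ?_
  have hmem : ∀ c, scl n F c ∈ (QuotientGroup.mk' (Subgroup.center (SpecialLinearGroup (Fin n) F))).ker := fun c => by
    rw [QuotientGroup.ker_mk']
    exact scl_mem c
  let j : (powMonoidHom n : Fˣ →* Fˣ).ker →* (QuotientGroup.mk' (Subgroup.center (SpecialLinearGroup (Fin n) F))).ker :=
    (scl n F).codRestrict _ hmem
  have hj : Function.Surjective j := by
    rintro ⟨z, hz⟩
    rw [QuotientGroup.ker_mk'] at hz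
    obtain ⟨c, hc⟩ := exists_scl (by omega) hz
    exact ⟨c, Subtype.ext hc⟩
  obtain ⟨μ, hμ⟩ := MonoidHom.domRestrict_surjective (M := ℂ) (powMonoidHom n : Fˣ →* Fˣ).ker (l.comp j)
  have hμ' : ∀ c : (powMonoidHom n : Fˣ →* Fˣ).ker, μ c = l (j c) := fun c => DFunLike.congr_fun hμ c
  obtain ⟨χ, hχ, hp, hc⟩ := H μ (by
    obtain ⟨z, hz⟩ := hl
    obtain ⟨c, rfl⟩ := hj z
    exact ⟨c, c.2, by rw [hμ']; exact hz⟩)
  refine ⟨χ, hχ, fun z => ?_, hp⟩
  obtain ⟨c, rfl⟩ := hj z
  rw [← hμ' c, ← hc c]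
  rfl

theorem det_scalar (c : Fˣ) :
    GeneralLinearGroup.det (GeneralLinearGroup.scalar (R := F) (Fin n) c) = c ^ n := by
  apply Units.ext
  rw [GeneralLinearGroup.val_det_apply, Units.val_pow_eq_pow_val]
  change (Matrix.scalar (Fin n) (c : F)).det = _
  rw [Matrix.scalar_apply, det_diagonal, Finset.prod_const, Finset.card_univ, Fintype.card_fin]

theorem index_sl (hn : 1 ≤ n) :
    ((GeneralLinearGroup.det : GL (Fin n) F →* Fˣ).ker ⊔ (GeneralLinearGroup.scalar (R := F) (Fin n)).range).index =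
      Nat.gcd n (Fintype.card F - 1) := by
  classical
  have h1 : (GeneralLinearGroup.det : GL (Fin n) F →* Fˣ).ker ⊔
      (GeneralLinearGroup.scalar (R := F) (Fin n)).range =
      (powMonoidHom n : Fˣ →* Fˣ).range.comap (GeneralLinearGroup.det : GL (Fin n) F →* Fˣ) := by
    apply le_antisymm
    · refine sup_le (fun g hg => ?_) ?_
      · rw [Subgroup.mem_comap, MonoidHom.mem_ker.1 hg]
        exact one_mem _
      · rintro _ ⟨c, rfl⟩
        exact ⟨c, (det_scalar c).symm⟩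
    · rintro g ⟨c, hc⟩
      rw [powMonoidHom_apply] at hc
      rw [← inv_mul_cancel_right g (GeneralLinearGroup.scalar (R := F) (Fin n) c)]
      refine Subgroup.mul_mem_sup ?_ ⟨c, rfl⟩
      rw [MonoidHom.mem_ker, map_mul, map_inv, det_scalar, hc, mul_inv_cancel]
  have : Nonempty (Fin n) := ⟨⟨0, hn⟩⟩
  rw [h1, Subgroup.index_comap_of_surjective _ GeneralLinearGroup.det_surjective, IsCyclic.index_powMonoidHom_range,
    Nat.gcd_comm, Nat.card_units, Nat.card_eq_fintype_card]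

theorem scalar_injective (hn : 1 ≤ n) : Function.Injective (GeneralLinearGroup.scalar (R := F) (Fin n)) := by
  intro c d h
  apply Units.ext
  have h1 := congrArg (fun g : GL (Fin n) F => (g : Matrix (Fin n) (Fin n) F) ⟨0, hn⟩ ⟨0, hn⟩) h
  change (Matrix.scalar (Fin n) (c : F)) ⟨0, hn⟩ ⟨0, hn⟩ = (Matrix.scalar (Fin n) (d : F)) ⟨0, hn⟩ ⟨0, hn⟩ at h1
  rwa [Matrix.scalar_apply, Matrix.scalar_apply, diagonal_apply_eq, diagonal_apply_eq] at h1

/-- **from `GL_n`** -/
theorem nball_psl_of_gl {p : ℕ} (h : H60.MultA.Ok n (Nat.card F))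
    (H : ∀ μ : Fˣ →* ℂˣ, ∃ (χ : GL (Fin n) F → ℂ) (d : ℕ), IsIrrCharacter _ χ ∧ χ 1 = d ∧
      p * Nat.gcd n (Fintype.card F - 1) ∣ d ∧
      ∀ (c : Fˣ) (g : GL (Fin n) F), χ (GeneralLinearGroup.scalar (Fin n) c * g) = μ c * χ g) :
    NBall p (ProjectiveSpecialLinearGroup (Fin n) F) := by
  classical
  have hn := h.two
  refine nball_psl_of_sl h fun μ _ => ?_
  obtain ⟨χ, d, hχ, hd, hpd, hc⟩ := H μ
  let N : Subgroup (GL (Fin n) F) := (GeneralLinearGroup.det : GL (Fin n) F →* Fˣ).ker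
  let Z : Subgroup (GL (Fin n) F) := (GeneralLinearGroup.scalar (R := F) (Fin n)).range
  let e : Fˣ ≃* Z := MonoidHom.ofInjective (scalar_injective (by omega))
  have he : ∀ c, ((e c : Z) : GL (Fin n) F) = GeneralLinearGroup.scalar (Fin n) c := fun c => rfl
  have hZ : ∀ z ∈ Z, ∀ g, z * g = g * z := by
    rintro _ ⟨c, rfl⟩ g
    exact GeneralLinearGroup.scalar_commute c g
  have hμ : ∀ (z : Z) (g : GL (Fin n) F), χ (z * g) = (μ.comp e.symm.toMonoidHom) z * χ g := by
    intro z g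
    obtain ⟨c, rfl⟩ := e.surjective z
    rw [he, hc]
    change μ c * χ g = μ (e.symm (e c)) * χ g
    rw [e.symm_apply_apply]
  obtain ⟨θ, a, t, hθ, ha, hat, ht, hz⟩ := exists_irr_restr N Z hZ hχ (μ.comp e.symm.toMonoidHom) hμ hd
  have ht' : t ∣ Nat.gcd n (Fintype.card F - 1) := by
    rw [← index_sl (F := F) (n := n) (by omega)]
    exact ht
  have hpa : p ∣ a := by
    obtain ⟨s, hs⟩ := ht'
    have h1 : p * (t * s) ∣ a * t := by rw [← hs, hat]; exact hpd
    have ht0 : 0 < t := by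
      rcases Nat.eq_zero_or_pos t with h0 | h0
      · exfalso
        rw [h0, zero_mul] at hs
        have : 0 < Nat.gcd n (Fintype.card F - 1) := Nat.gcd_pos_of_pos_left _ (by omega)
        omega
      · exact h0
    have h2 : t * (p * s) ∣ t * a := by
      rw [show t * (p * s) = p * (t * s) by ring, mul_comm t a]; exact h1
    exact (Dvd.intro s rfl).trans (Nat.dvd_of_mul_dvd_mul_left ht0 h2)
  have hmem : ∀ g : SpecialLinearGroup (Fin n) F, SpecialLinearGroup.toGL g ∈ N := fun g => by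
    change GeneralLinearGroup.det (SpecialLinearGroup.toGL g) = 1
    exact SpecialLinearGroup.coeToGL_det g
  let f : SpecialLinearGroup (Fin n) F →* N := (SpecialLinearGroup.toGL (n := Fin n) (R := F)).codRestrict N hmem
  have hf : Function.Surjective f := by
    rintro ⟨g, hg⟩
    have h1 : g ∈ Set.range (SpecialLinearGroup.toGL (n := Fin n) (R := F)) := by
      rw [SpecialLinearGroup.range_toGL]
      exact hg
    obtain ⟨x, rfl⟩ := h1
    exact ⟨x, rfl⟩
  refine ⟨θ ∘ f, isIrr_comp f hf hθ, ?_, fun c => ?_⟩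
  · have h1 : (θ ∘ f) 1 = (a : ℂ) := by rw [Function.comp_apply, map_one, ha]
    rw [Blocks.Basic.charDegree_of_eq h1]
    exact hpa
  · have h1 : GeneralLinearGroup.scalar (Fin n) (c : Fˣ) ∈ N := by
      change GeneralLinearGroup.det (GeneralLinearGroup.scalar (Fin n) (c : Fˣ)) = 1
      rw [det_scalar]
      exact c.2
    have h2 := hz _ h1 ⟨c, rfl⟩
    have h3 : f (scl n F c) = ⟨GeneralLinearGroup.scalar (Fin n) (c : Fˣ), h1⟩ := by
      apply Subtype.ext
      apply Units.ext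
      rfl
    rw [Function.comp_apply, Function.comp_apply, map_one, h3, h2]
    have h4 : (⟨GeneralLinearGroup.scalar (Fin n) (c : Fˣ), ⟨c, rfl⟩⟩ : Z) = e c := rfl
    rw [h4]
    change θ 1 * μ (e.symm (e c)) = θ 1 * μ c
    rw [e.symm_apply_apply]

end Cfsg.Agent.H46.RIM
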