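import Cfsg.Agent.H46.RIM.Cover
import Cfsg.Agent.H113.PSL.Pass
import Cfsg.Agent.S0188

/-!
# S4816: restriction to a normal subgroup, with central characters (helper46)

* `exists_irr_restr` : `N` normal in `G`, `Z` central, `χ ∈ Irr(G)` over `μ ∈ Irr(Z)`: `N` has an irreducible character `θ` over
  `μ`, `χ(1) = t θ(1)`, `t ∣ |G : N Z|`.
-/

set_option autoImplicit false
set_option linter.unusedSectionVars false

namespace Cfsg.Agent.H46.RIM

open Cfsg Cfsg.Agent.Characters.Core Cfsg.Agent.Characters.Linear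
open scoped ComplexConjugate

universe u v w

/-- **Restriction to a normal subgroup with a central character.** -/
theorem exists_irr_restr {G : Type u} [Group G] [Finite G] (N Z : Subgroup G) [hN : N.Normal]
    (hZ : ∀ z ∈ Z, ∀ g, z * g = g * z) {χ : G → ℂ} (hχ : IsIrrCharacter G χ) (μ : Z →* ℂˣ)
    (hμ : ∀ (z : Z) (g : G), χ (z * g) = μ z * χ g) {d : ℕ} (hd : χ 1 = d) :
    ∃ (θ : N → ℂ) (e t : ℕ), IsIrrCharacter N θ ∧ θ 1 = e ∧ e * t = d ∧ t ∣ (N ⊔ Z).index ∧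
      ∀ (z : G) (hzN : z ∈ N) (hzZ : z ∈ Z), θ ⟨z, hzN⟩ = θ 1 * μ ⟨z, hzZ⟩ := by
  classical
  have hZn : Z.Normal := ⟨fun z hz g => by rw [← hZ z hz g, mul_inv_cancel_right]; exact hz⟩
  let M : Subgroup G := N ⊔ Z
  have hMn : M.Normal := Subgroup.sup_normal N Z
  have := Fintype.ofFinite G
  have := Fintype.ofFinite M
  have hres : IsCharacter M (fun n : M => χ n) := isCharacter_comp M.subtype (isIrr_isCharacter hχ)
  have h0 : (fun n : M => χ n) ≠ 0 := by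
    intro h
    have := congrFun h 1
    exact isIrr_apply_one_ne_zero hχ this
  obtain ⟨θ, hθ, hne⟩ := Cfsg.Agent.H113.NormTwoChar.exists_constituent hres h0
  obtain ⟨e, he0, he⟩ := isIrr_apply_one hθ
  obtain ⟨h1, h2⟩ := Cfsg.Agent.S0887.result M χ hχ θ hθ hne d e hd he
  -- the central character of `θ`
  have hNM : N ≤ M := le_sup_left
  have hZM : Z ≤ M := le_sup_right
  have hcen : ∀ (z : G) (hz : z ∈ Z), θ ⟨z, hZM hz⟩ = μ ⟨z, hz⟩ * θ 1 := by
    intro z hz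
    by_contra hcon
    apply hne
    have hZ' : ∀ z ∈ Z.subgroupOf M, ∀ g, z * g = g * z := fun z hz g => Subtype.ext (hZ z hz g)
    let μ' : Z.subgroupOf M →* ℂˣ := μ.comp (Subgroup.subgroupOfEquivOfLe hZM).toMonoidHom
    exact H115.HC.CuspCentral.classInner_eq_zero hθ (Z.subgroupOf M) hZ' μ' (Φ := fun n : M => χ n)
      (fun z x => hμ ⟨z.1.1, z.2⟩ x.1) (z := ⟨⟨z, hZM hz⟩, hz⟩) hcon
  -- `N × Z → M`
  let f : N × Z →* M :=
    { toFun := fun x => ⟨x.1.1 * x.2.1, M.mul_mem (hNM x.1.2) (hZM x.2.2)⟩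
      map_one' := Subtype.ext (by simp)
      map_mul' := fun x y => Subtype.ext (by
        change x.1.1 * y.1.1 * (x.2.1 * y.2.1) = x.1.1 * x.2.1 * (y.1.1 * y.2.1)
        rw [mul_assoc, mul_assoc, ← mul_assoc y.1.1, ← hZ x.2.1 x.2.2 y.1.1, mul_assoc]) }
  have hf : Function.Surjective f := by
    rintro ⟨m, hm⟩
    obtain ⟨n, hn, z, hz, rfl⟩ := Subgroup.mem_sup_of_normal_left.1 hm
    exact ⟨(⟨n, hn⟩, ⟨z, hz⟩), rfl⟩
  obtain ⟨φ, ψ, hφ, hψ, hfp⟩ := (Cfsg.Agent.S0188.result _).1 (isIrr_comp f hf hθ)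
  have hval : ∀ (n : N) (z : Z), θ (f (n, z)) = φ n * ψ z := fun n z => congrFun hfp (n, z)
  have hφ0 : φ 1 ≠ 0 := isIrr_apply_one_ne_zero hφ
  have hf1 : ∀ z : Z, f (1, z) = ⟨z, hZM z.2⟩ := fun z => Subtype.ext (one_mul _)
  have hψ1 : ∀ z, ψ z = ψ 1 * μ z := by
    intro z
    have e1 := hval 1 z
    have e2 := hval 1 1
    rw [hf1] at e1 e2
    rw [hcen z z.2] at e1
    have e3 : (⟨((1 : Z) : G), hZM (1 : Z).2⟩ : M) = 1 := rfl
    rw [e3] at e2
    rw [e2] at e1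
    apply mul_left_cancel₀ hφ0
    rw [← e1]
    ring
  have hψone : ψ 1 = 1 := by
    obtain ⟨k, hk0, hk⟩ := isIrr_apply_one hψ
    have := Fintype.ofFinite Z
    have e1 := classInner_irr_self hψ
    have e2 : ψ = ψ 1 • fun z => (μ z : ℂ) := by
      funext z
      rw [Pi.smul_apply, smul_eq_mul]
      exact hψ1 z
    have e3 := classInner_irr_self (isIrrCharacter_hom μ)
    rw [e2, classInner_smul_left, classInner_smul_right, e3, hk] at e1
    have e4 : (k : ℂ) * (k : ℂ) = 1 := by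
      rw [← e1, mul_one]
      simp
    have e5 : k * k = 1 := by exact_mod_cast e4
    rw [hk, Nat.eq_one_of_mul_eq_one_right e5, Nat.cast_one]
  have hφN : ∀ n : N, φ n = θ ⟨n, hNM n.2⟩ := by
    intro n
    have e1 := hval n 1
    rw [hψone, mul_one] at e1
    rw [← e1]
    congr 1
    exact Subtype.ext (mul_one _)
  refine ⟨φ, e, d / e, hφ, ?_, Nat.mul_div_cancel' h1, h2, ?_⟩
  · rw [hφN, ← he]
    rfl
  · intro z hzN hzZ
    rw [hφN, hφN]
    have e1 := hcen z hzZ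
    have e2 : (⟨((1 : N) : G), hNM (1 : N).2⟩ : M) = 1 := rfl
    rw [e2, mul_comm]
    exact e1

end Cfsg.Agent.H46.RIM
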